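import Cfsg.Agent.H582.Sq.E78

/-!
# S4844, row `E₆(q)`: a character degree divisible by `p ^ 2`, `p` odd

* `A₄ A₁ < E₆` : degree `a (q - 1) (q⁶ - 1)(q⁸ - 1)(q⁹ - 1)(q¹² - 1) / t`, `t ∣ 10`;
* the index of the parabolic subgroup of all nodes but the branch node if `p ∣ q⁵ - 1`, `p ∤ q - 1`.
-/

set_option autoImplicit false
set_option linter.unusedSectionVars false

namespace Cfsg.Agent.H690.Sq

open Cfsg Cfsg.Agent.H53.HC Cfsg.Agent.H53.HC.ExcIM Cfsg.Agent.H53.HC.ExcRows Cfsg.Agent.H35.ExcIdx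
  Cfsg.Agent.H35.PoinNum Cfsg.Agent.H35.Poin Cfsg.Lie Cfsg.Agent.Nodes Cfsg.Agent.Nodes.RGDChev
open CoxeterSystem Cfsg.Agent.ChevalleyStructure Cfsg.Agent.ChevalleyStructure.Elts
  Cfsg.Agent.ChevalleyStructure.RootVec Cfsg.Agent.ChevalleyStructure.RootVecTab
  Cfsg.Agent.ChevalleyStructure.NPerm Cfsg.Agent.ChevalleyStructure.CoxeterGeomTypes
open Cfsg.Agent.ChevalleyStructure.CoxeterGeom Cfsg.Agent.Tits.Roots Cfsg.Agent.Tits.Core
  Cfsg.Agent.Tits.Exchange Cfsg.Agent.Nodes.Reps Cfsg.Agent.Nodes.BNOf Cfsg.Agent.Nodes.StabComb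
  Cfsg.Agent.Nodes.Bruhat Cfsg.Agent.Nodes.OppDec Cfsg.Agent.Nodes.LeviDec
open Cfsg.Agent.H582.Sq (sq_dvd_left dvd_of_gcd dvd_pow_sub not_dvd_pr' dvd_P)

universe u

/-- the chain of the nodes `0, 2, 3, 1` of `E₆` -/
def c4 : Fin 4 ↪ Fin 6 := ⟨![0, 2, 3, 1], by decide⟩

theorem range_c4 : Set.range c4 = {0, 2, 3, 1} := by
  ext x
  simp only [Set.mem_range, Set.mem_insert_iff, Set.mem_singleton_iff]
  revert x; decide

theorem hc4 : ∀ i j, m6 (c4 i) (c4 j) = mA 4 i j := by decide +kernel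

theorem compl64 : ({i | i ≠ 4} : Set (Fin 6)) = {0, 2, 3, 1} ∪ {5} := by
  ext i
  simp only [Set.mem_ofPred_eq, Set.mem_union, Set.mem_insert_iff, Set.mem_singleton_iff]
  revert i; decide

theorem or64 : Or m6 [0, 2, 3, 1] [5] := by decide +kernel

/-- the Cartan matrix of `E₆` -/
def A6 (i j : Fin 6) : ℤ := cartanOf chevE6 6 i j

theorem tab6 : ∀ i j, A6 i j = (![![2, 0, -1, 0, 0, 0], ![0, 2, 0, -1, 0, 0], ![-1, 0, 2, -1, 0, 0],
    ![0, -1, -1, 2, -1, 0], ![0, 0, 0, -1, 2, -1], ![0, 0, 0, 0, -1, 2]] : Fin 6 → Fin 6 → ℤ) i j := by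
  decide +kernel

/-- three times a weight which is not in the root lattice -/
def u6 : Fin 6 → ℤ := ![1, 0, 2, 0, 1, 2]

theorem pairing_u6 : ∀ i, (3 : ℤ) ∣ pairing (cartanOf chevE6 6) i u6 := by
  intro i
  have h : pairing (cartanOf chevE6 6) i u6 = ∑ k, A6 i k * u6 k := rfl
  rw [h]
  revert i
  decide +kernel

/-- the Weyl group acts trivially on weights modulo roots -/
theorem rep_u6 (w : CoxeterMatrix.E₆.Group) :
    ∃ y : Fin 6 → ℤ, rep CoxeterMatrix.E₆.toCoxeterSystem hpE6.isCartan w u6 = u6 + (3 : ℤ) • y := by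
  induction w using CoxeterMatrix.E₆.toCoxeterSystem.simple_induction_left with
  | one => exact ⟨0, by rw [map_one]; simp⟩
  | mul_simple_left w i ih =>
    obtain ⟨y, hy⟩ := ih
    obtain ⟨c, hc⟩ := pairing_u6 i
    refine ⟨y - (c + pairing (cartanOf chevE6 6) i y) • sr i, ?_⟩
    rw [rep_mul_apply, hy, rep_simple_eq, pairing_add, pairing_smul, hc]
    module

/-- no element outside `W_J` permutes the simple roots of `J` -/
theorem no_perm {w : CoxeterMatrix.E₆.Group}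
    (hw : Perm CoxeterMatrix.E₆.toCoxeterSystem hpE6.isCartan {i | i ≠ 4} w)
    (hwJ : w ∉ WJ CoxeterMatrix.E₆.toCoxeterSystem {i | i ≠ 4}) : False := by
  have hfin : Finite CoxeterMatrix.E₆.Group := finite_W hpE6 CoxeterMatrix.E₆.toCoxeterSystem
  obtain ⟨y, hy⟩ := rep_u6 w
  have h1 := apply_eq_neg (fun i => Iff.rfl) hw hwJ u6
  rw [hy] at h1
  have h2 : (u6 + (3 : ℤ) • y) 4 = 1 + 3 * y 4 := by simp [u6]
  have h3 : u6 4 = 1 := rfl
  rw [h2, h3] at h1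
  omega

section idx

variable {K : Type u} [Field K] [Fintype K] {r f : ℕ} (hr : r.Prime) (hf : f ≠ 0)
  (hK : Fintype.card K = r ^ f) [CharP K r]

theorem path64a : PathOK CoxeterMatrix.E₆ [0, 1, 2, 3, 5] [0, 2, 3, 1] [5] 0 := by constructor <;> decide +kernel
theorem path64b : PathOK CoxeterMatrix.E₆ [5] [5] [] 0 := by constructor <;> decide +kernel

include hr hf hK in
theorem order_E6 : ∃ b, Nat.gcd 3 (r ^ f - 1) * Nat.card (chevE6.group K) = r ^ b * pr (r ^ f) [2, 5, 6, 8, 9, 12] := by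
  refine ⟨f * 36, ?_⟩
  have h3 := Cfsg.Agent.S1063.result hK
  rw [pow_mul]
  simp only [pr_cons, pr_nil]
  rw [h3]
  ring

include hr hf hK in
/-- the index of the parabolic subgroup of all nodes but `4` -/
theorem idx64 : (PJ CoxeterMatrix.E₆.toCoxeterSystem hpE6.isCartan (TT chevE6 K) (XX chevE6 6 K) {j | j ≠ 4}).index *
    pr (r ^ f) [1, 2, 3, 4, 5, 2] = pr (r ^ f) [2, 5, 6, 8, 9, 12] := by
  have hJ : ({j | j ≠ 4} : Set (Fin 6)) = {j | j ∈ ([0, 1, 2, 3, 5] : List (Fin 6))} := by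
    ext j; revert j; decide
  have h2 := two_le hr hf
  have hfin := finite_W hpE6 CoxeterMatrix.E₆.toCoxeterSystem
  have := finite_group (K := K) chevE6
  have D := data_E6_3 hr hf hK
  rw [hJ]
  have h1 := index_split hpE6 K hr hf hK CoxeterMatrix.E₆.toCoxeterSystem (d := Nat.gcd 3 (r ^ f - 1))
    (N := FA 4 (r ^ f) * (FA 1 (r ^ f) * 1))
    (P := pr (r ^ f) [2, 5, 6, 8, 9, 12]) (not_dvd_of_dvd hr hf (Nat.gcd_dvd_right _ _))
    (by rw [← hK]; exact Cfsg.Agent.S1035.result rfl (chevE6, Nat.gcd 3 (Fintype.card K - 1)) (by simp))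
    (order_E6 hr hf hK) (not_dvd_pr hr hf _ (by simp)) (card_step D.rgd path64a (fun i _ => D.size i)
        (card_step D.rgd path64b (fun i _ => D.size i) (card_nil D.rgd)))
  rw [← h1]
  have e1 := mul_poin (show 1 ≤ r ^ f by omega) 1
  have e4 := mul_poin (show 1 ≤ r ^ f by omega) 4
  have e : pr (r ^ f) [1, 2, 3, 4, 5, 2] = (r ^ f - 1) ^ 1 * ((∏ i ∈ Finset.range 1, ((r ^ f) ^ (i + 2) - 1)) * (∏ i ∈ Finset.range 4, ((r ^ f) ^ (i + 2) - 1))) := by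
    simp only [pr_cons, pr_nil, Finset.prod_range_succ, Finset.prod_range_zero, pow_one]
    ring
  rw [e, ← e1, ← e4]
  unfold FA
  ring

include hr hf hK in
/-- the index of the parabolic subgroup of all nodes but `3` -/
theorem idx63 : (PJ CoxeterMatrix.E₆.toCoxeterSystem hpE6.isCartan (TT chevE6 K) (XX chevE6 6 K) {j | j ≠ 3}).index *
    pr (r ^ f) [1, 2, 3, 2, 2, 3] = pr (r ^ f) [2, 5, 6, 8, 9, 12] := by
  have hJ : ({j | j ≠ 3} : Set (Fin 6)) = {j | j ∈ ([0, 1, 2, 4, 5] : List (Fin 6))} := by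
    ext j; revert j; decide
  have h2 := two_le hr hf
  have hfin := finite_W hpE6 CoxeterMatrix.E₆.toCoxeterSystem
  have := finite_group (K := K) chevE6
  have D := data_E6_3 hr hf hK
  rw [hJ]
  have h1 := index_split hpE6 K hr hf hK CoxeterMatrix.E₆.toCoxeterSystem (d := Nat.gcd 3 (r ^ f - 1))
    (N := FA 2 (r ^ f) * (FA 1 (r ^ f) * (FA 2 (r ^ f) * 1)))
    (P := pr (r ^ f) [2, 5, 6, 8, 9, 12]) (not_dvd_of_dvd hr hf (Nat.gcd_dvd_right _ _))
    (by rw [← hK]; exact Cfsg.Agent.S1035.result rfl (chevE6, Nat.gcd 3 (Fintype.card K - 1)) (by simp))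
    (order_E6 hr hf hK) (not_dvd_pr hr hf _ (by simp)) (card_step D.rgd path_E6_3_0 (fun i _ => D.size i)
        (card_step D.rgd path_E6_3_1 (fun i _ => D.size i) (card_step D.rgd path_E6_3_2 (fun i _ => D.size i)
          (card_nil D.rgd))))
  rw [← h1]
  have e1 := mul_poin (show 1 ≤ r ^ f by omega) 1
  have e2 := mul_poin (show 1 ≤ r ^ f by omega) 2
  have e : pr (r ^ f) [1, 2, 3, 2, 2, 3] = (r ^ f - 1) ^ 1 * ((∏ i ∈ Finset.range 2, ((r ^ f) ^ (i + 2) - 1)) * (∏ i ∈ Finset.range 1, ((r ^ f) ^ (i + 2) - 1)) * (∏ i ∈ Finset.range 2, ((r ^ f) ^ (i + 2) - 1))) := by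
    simp only [pr_cons, pr_nil, Finset.prod_range_succ, Finset.prod_range_zero, pow_one]
    ring
  rw [e, ← e1, ← e2]
  unfold FA
  ring

end idx

/-! ### characters -/

section gen

variable {r q l : ℕ} {M : CoxeterMatrix (Fin l)} {A : Fin l → Fin l → ℤ} {h : IsCartan M A} {f : Fin l → ℕ}
  {S : Type*} [Group S] {T : Subgroup S} {n : Fin l → S} {X : (Fin l → ℤ) → Subgroup S}

/-- the character of `H53.HC.big_of_two`: its degree is divisible by the index of `P_J` -/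
theorem exists_idx_dvd_two [Finite S] {j k₀ k₁ l₀ l₁ : Fin l} {N : Set (Fin l)}
    (D : ExcData r q h f {i | i ≠ j} T n X) (hJ : ({i | i ≠ j} : Set (Fin l)) = {k₀, k₁} ∪ ({l₀, l₁} ∪ N))
    (hoK : ∀ i ∈ ({k₀, k₁} : Set (Fin l)), ∀ i' ∈ ({l₀, l₁} ∪ N : Set (Fin l)), M i i' = 2)
    (hoL : ∀ i ∈ ({l₀, l₁} : Set (Fin l)), ∀ i' ∈ N, M i i' = 2)
    (hk : M k₀ k₁ = 3) (hk1 : M k₁ j = 2) (hk0 : M k₀ j = 3) (hl : M l₀ l₁ = 3) (hl1 : M l₁ j = 2) (hl0 : M l₀ j = 3)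
    (hun : ∀ a b, a ≠ j → b ≠ j → M a b = 3 → (∀ c, c ≠ j → c ≠ a → c ≠ b → M a c = 2 ∧ M b c = 2) →
      (a = k₀ ∧ b = k₁) ∨ (a = k₁ ∧ b = k₀) ∨ (a = l₀ ∧ b = l₁) ∨ (a = l₁ ∧ b = l₀))
    (hA2 : InA2 h X q k₀ k₁)
    (hL : ∃ α α' : ↥(MJ M.toCoxeterSystem h X {l₀, l₁}) → ℂ, Cusp M.toCoxeterSystem h X {l₀, l₁} α ∧
      Cusp M.toCoxeterSystem h X {l₀, l₁} α' ∧
      ∀ t (ht : t ∈ T), α' ≠ α ∘ conjME (MJ M.toCoxeterSystem h X {l₀, l₁}) (T_le_normalizer_MJ D.rgd {l₀, l₁} ht))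
    (hN : In h X N) :
    ∃ χ : S → ℂ, IsIrrCharacter S χ ∧ ∃ N : ℕ, χ 1 = N ∧ (PJ M.toCoxeterSystem h T X {i | i ≠ j}).index ∣ N := by
  classical
  have := D.fin
  have : Fintype S := Fintype.ofFinite S
  obtain ⟨θ, hθ, hns, d, t, hd, hdt, ht⟩ := hA2
  obtain ⟨α, α', hα, hα', hne⟩ := hL
  obtain ⟨β, hβ⟩ := hN
  have hmem : ∀ i, i ∈ ({i | i ≠ j} : Set (Fin l)) ↔ i ≠ j := fun i => Iff.rfl
  have hk0J : k₀ ∈ ({i | i ≠ j} : Set (Fin l)) := by rw [hJ]; simp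
  have hk1J : k₁ ∈ ({i | i ≠ j} : Set (Fin l)) := by rw [hJ]; simp
  have hl0J : l₀ ∈ ({i | i ≠ j} : Set (Fin l)) := by rw [hJ]; simp
  have hl1J : l₁ ∈ ({i | i ≠ j} : Set (Fin l)) := by rw [hJ]; simp
  obtain ⟨χ, hχ, k, hk0', hχ1⟩ := exists_irr_two D.rgd D.gg hmem hJ (orth_of h hoK) (orth_of h hoL) rfl rfl
    (isoPair_of h hk0J hk1J hk fun c hc hc0 hc1 => by
      rw [hJ] at hc
      rcases hc with hc | hc
      · rcases hc with rfl | rfl
        · exact absurd rfl hc0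
        · exact absurd rfl hc1
      · exact ⟨hoK _ (by simp) c hc, hoK _ (by simp) c hc⟩)
    (isoPair_of h hl0J hl1J hl fun c hc hc0 hc1 => by
      rw [hJ] at hc
      rcases hc with hc | hc | hc
      · have e1 := hoK c hc l₀ (by simp)
        have e2 := hoK c hc l₁ (by simp)
        rw [M.symmetric] at e1 e2
        exact ⟨e1, e2⟩
      · rcases hc with rfl | rfl
        · exact absurd rfl hc0
        · exact absurd rfl hc1
      · exact ⟨hoL _ (by simp) c hc, hoL _ (by simp) c hc⟩)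
    (cartan_two h hk1).1 (cartan_two h hl1).1 (not_three_dvd h (Or.inl hk0))
    ((cartan_three h hl0).1.trans (cartan_three h hk0).1.symm)
    (fun a b hab => by
      obtain ⟨h1, h2, h3, h4⟩ := of_isoPair h hab
      exact hun a b h1 h2 h3 h4)
    hθ hns hα hα' hne hβ
  refine ⟨χ, hχ, (PJ M.toCoxeterSystem h T X {i | i ≠ j}).index * (k * d), ?_, Dvd.intro _ rfl⟩
  rw [hχ1, hd]; push_cast; ring

end gen

section chars

variable {K : Type u} [Field K] [Fintype K] {r f : ℕ} (hr : r.Prime) (hf : f ≠ 0)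
  (hK : Fintype.card K = r ^ f) [CharP K r]

include hr hf hK

/-- **`A₂ A₂ A₁ < E₆`** -/
theorem char63 : ∃ χ : ↥(chevE6.group K) → ℂ, IsIrrCharacter _ χ ∧ ∃ N i : ℕ, χ 1 = N ∧ i ∣ N ∧
    i * pr (r ^ f) [1, 2, 3, 2, 2, 3] = pr (r ^ f) [2, 5, 6, 8, 9, 12] := by
  have := finite_group (K := K) chevE6
  have D := data_E6_3 hr hf hK
  obtain ⟨χ, hχ, N, hN, hd⟩ := exists_idx_dvd_two D (N := {1}) compl6 (by
      intro i hi i' hi'
      exact or6a i (by simpa using hi) i' (by simpa using hi')) (by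
      intro i hi i' hi'
      exact or6b i (by simpa using hi) i' (by simpa using hi')) (by decide +kernel) (by decide +kernel)
    (by decide +kernel) (by decide +kernel) (by decide +kernel) (by decide +kernel) un6
    (in_A2 D (by decide +kernel) rfl) (in_pair D (by decide +kernel)) (in_node D 1 3 (by decide +kernel))
  exact ⟨χ, hχ, N, _, hN, hd, idx63 hr hf hK⟩

/-- **`A₄ A₁ < E₆`** -/
theorem char64 : ∃ χ : ↥(chevE6.group K) → ℂ, IsIrrCharacter _ χ ∧ ∃ N t t' k : ℕ, χ 1 = N ∧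
    t ∣ Nat.gcd 5 (r ^ f - 1) ∧ t' ∣ 2 ∧ N * t * t' = k * ((r ^ f - 1) * ((r ^ f) ^ 6 - 1) * ((r ^ f) ^ 8 - 1) * ((r ^ f) ^ 9 - 1) *
      ((r ^ f) ^ 12 - 1)) := by
  classical
  have := finite_group (K := K) chevE6
  have : Fintype ↥(chevE6.group K) := Fintype.ofFinite _
  have D := data_E6_3 hr hf hK
  have := D.fin
  have h2 := two_le hr hf
  obtain ⟨θ, e, t, hθ, he, het, ht⟩ := H622.Levi.cusp_chain D.rgd (by norm_num) c4 hc4 0 (D.size _)
  obtain ⟨θ', e', t', hθ', he', het', ht'⟩ := H622.Levi.cusp_node D.rgd 5 4 (by decide +kernel) (D.size 5)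
  have ho : Orth (cartanOf chevE6 6) (Set.range c4) {5} := by
    rw [range_c4]
    exact orth_of hpE6.isCartan (by
      intro i hi i' hi'
      exact or64 i (by simpa using hi) i' (by simpa using hi'))
  obtain ⟨ψ, hψ, hval⟩ := hθ.exists_prod D.rgd ho hθ'
  have hval1 : ψ 1 = θ 1 * θ' 1 := by
    obtain ⟨hab, e⟩ := hval 1 (one_mem _) 1 (one_mem _)
    simp only [mul_one] at e
    exact e
  obtain ⟨χ, hχ, a, ha, hχ1⟩ := exists_irr_MJ D.rgd D.gg (Set.range c4 ∪ {5}) hψ.irr hψ.van (by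
    intro w g hg hw hp
    exfalso
    rw [range_c4, ← compl64] at hp hw
    exact no_perm hp hw)
  refine ⟨χ, hχ, (PJ CoxeterMatrix.E₆.toCoxeterSystem hpE6.isCartan (TT chevE6 K) (XX chevE6 6 K) {j | j ≠ 4}).index *
      (a * (e * e')), t, t', a, ?_, ht, ht'.trans (Nat.gcd_dvd_left _ _), ?_⟩
  · rw [hχ1, hval1, he, he', range_c4, ← compl64]
    push_cast
    ring
  · have h1 := idx64 hr hf hK
    have hpos : 0 < (r ^ f) ^ 5 - 1 := Nat.sub_pos_of_lt (Nat.one_lt_pow (by norm_num) h2)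
    have hpos2 : 0 < (r ^ f) ^ 2 - 1 := Nat.sub_pos_of_lt (Nat.one_lt_pow (by norm_num) h2)
    refine Nat.eq_of_mul_eq_mul_right (Nat.mul_pos hpos hpos2) ?_
    set I := (PJ CoxeterMatrix.E₆.toCoxeterSystem hpE6.isCartan (TT chevE6 K) (XX chevE6 6 K) {j | j ≠ 4}).index
    simp only [pr_cons, pr_nil, Finset.prod_range_succ, Finset.prod_range_zero, pow_one, zero_add,
      mul_one, one_mul] at h1 het
    calc I * (a * (e * e')) * t * t' * (((r ^ f) ^ 5 - 1) * ((r ^ f) ^ 2 - 1))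
        = I * a * (e * t) * (e' * t') * (((r ^ f) ^ 5 - 1) * ((r ^ f) ^ 2 - 1)) := by ring
      _ = a * (r ^ f - 1) * (I * ((r ^ f - 1) * (((r ^ f) ^ 2 - 1) * (((r ^ f) ^ 3 - 1) *
          (((r ^ f) ^ 4 - 1) * (((r ^ f) ^ 5 - 1) * ((r ^ f) ^ 2 - 1))))))) := by
          rw [het, het']; ring
      _ = _ := by rw [h1]; ring

end chars

/-- **The row `E₆(q)`.** -/
theorem sq_e6 {S : Type u} [Group S] [Finite S] (h : Lie.IsoChevE6 S) (hs : IsSimpleGroup S) {p : ℕ}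
    [hp : Fact p.Prime] (hp2 : p ≠ 2) (hd : p ^ 2 ∣ Nat.card S) : H33.IM (p ^ 2) S := by
  obtain ⟨F, _, _, ⟨e⟩⟩ := h
  obtain ⟨r, f, hr, hf, hF, hch⟩ := exists_prime_pow F
  have := simple_congr e hs
  have := finite_group (K := F) chevE6
  have D := data_E6_3 hr hf hF
  refine H33.IM.of_equiv e ?_
  rw [Nat.card_congr e.toEquiv] at hd
  by_cases hpr : p = r
  · subst hpr
    exact im_pow hr (by norm_num) D hd
  have hP : p ^ 2 ∣ pr (r ^ f) [2, 5, 6, 8, 9, 12] := by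
    obtain ⟨b, hb⟩ := order_E6 hr hf hF
    exact dvd_P hp.out hr hpr hd hb
  by_cases hcase : p ∣ (r ^ f) ^ 5 - 1 ∧ ¬ p ∣ r ^ f - 1
  · obtain ⟨h5, h1⟩ := hcase
    obtain ⟨χ, hχ, N, i, hN, hi, hidx⟩ := char63 hr hf hF
    refine H33.IM.of_apply_one hχ hN (dvd_trans ?_ hi)
    refine sq_dvd_left hp.out (by rw [hidx]; exact hP) (not_dvd_pr' hp.out _ ?_)
    have h2 : ∀ a, Nat.gcd a 5 = 1 → ¬ p ∣ (r ^ f) ^ a - 1 := fun a ha h6 => h1 (by
      have h7 := dvd_of_gcd h6 h5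
      rwa [ha, pow_one] at h7)
    intro d hd'
    have : d = 1 ∨ d = 2 ∨ d = 3 := by
      revert hd'; revert d; decide
    rcases this with rfl | rfl | rfl
    all_goals exact h2 _ (by decide)
  · obtain ⟨χ, hχ, N, t, t', k, hN, ht, ht', hNt⟩ := char64 hr hf hF
    refine H33.IM.of_apply_one hχ hN ?_
    have ht2 : ¬ p ∣ t' := fun h6 => hp2
      ((Nat.prime_dvd_prime_iff_eq hp.out Nat.prime_two).1 (h6.trans ht'))
    by_cases h1 : p ∣ r ^ f - 1
    · have h1' : p ∣ (r ^ f) ^ 1 - 1 := by rwa [pow_one]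
      have h6 : p * p * p ∣ N * t * t' := by
        rw [hNt]
        refine Dvd.dvd.mul_left ?_ k
        refine (mul_dvd_mul (mul_dvd_mul (dvd_pow_sub (show 1 ∣ 6 by norm_num) h1')
          (dvd_pow_sub (show 1 ∣ 8 by norm_num) h1')) (dvd_pow_sub (show 1 ∣ 9 by norm_num) h1')).trans ?_
        exact ⟨(r ^ f - 1) * ((r ^ f) ^ 12 - 1), by ring⟩
      have h7 : p * p * p ∣ N * t := by
        have e3 : p * p * p = p ^ 3 := by ring
        rw [e3] at h6 ⊢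
        exact (Nat.Coprime.pow_left 3 ((Nat.Prime.coprime_iff_not_dvd hp.out).2 ht2)).dvd_of_dvd_mul_right h6
      rcases (Nat.dvd_prime (by norm_num : (5 : ℕ).Prime)).1 (ht.trans (Nat.gcd_dvd_left _ _)) with rfl | rfl
      · rw [mul_one] at h7
        exact (Dvd.intro p (show p ^ 2 * p = p * p * p by ring)).trans h7
      · by_cases hp5 : p = 5
        · subst hp5
          have h4 := Nat.dvd_of_mul_dvd_mul_right (by norm_num) h7
          rwa [sq]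
        · refine sq_dvd_left hp.out ((Dvd.intro p (show p ^ 2 * p = p * p * p by ring)).trans h7) fun h8 => hp5 ?_
          exact (Nat.prime_dvd_prime_iff_eq hp.out (by norm_num)).1 h8
    · have h5 : ¬ p ∣ (r ^ f) ^ 5 - 1 := fun h5 => hcase ⟨h5, h1⟩
      have ht5 : ¬ p ∣ t := fun h6 => h1 (h6.trans (ht.trans (Nat.gcd_dvd_right _ _)))
      refine sq_dvd_left hp.out (sq_dvd_left hp.out ?_ ht2) ht5
      rw [hNt]
      refine Dvd.dvd.mul_left ?_ k
      by_cases h2 : p ∣ (r ^ f) ^ 2 - 1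
      · rw [sq]
        refine (mul_dvd_mul (dvd_pow_sub (show 2 ∣ 6 by norm_num) h2) (dvd_pow_sub (show 2 ∣ 8 by norm_num) h2)).trans ?_
        exact ⟨(r ^ f - 1) * ((r ^ f) ^ 9 - 1) * ((r ^ f) ^ 12 - 1), by ring⟩
      · have h6 : p ^ 2 ∣ (((r ^ f) ^ 6 - 1) * ((r ^ f) ^ 8 - 1) * ((r ^ f) ^ 9 - 1) *
            ((r ^ f) ^ 12 - 1)) * (((r ^ f) ^ 2 - 1) * ((r ^ f) ^ 5 - 1)) := by
          refine hP.trans (dvd_of_eq ?_)
          simp only [pr_cons, pr_nil]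
          ring
        refine (sq_dvd_left hp.out h6 ?_).trans ⟨r ^ f - 1, by ring⟩
        rw [hp.out.dvd_mul, not_or]
        exact ⟨h2, h5⟩

end Cfsg.Agent.H690.Sq
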